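import Cfsg.Agent.H720.HT.DD
import Cfsg.Agent.H483.HT.V1
import Cfsg.Agent.H316.HT.Defs

/-!
# S4933: `DD` and `NV` agree, and either of them makes the row vacuous
-/

set_option autoImplicit false

namespace Cfsg.Agent.H720.HT

open Subgroup Cfsg
open scoped commutatorElement
open Cfsg.Agent.H483.HT (NV)
open Cfsg.Agent.H316.HT (Row CD GoodOn)

universe u v

theorem DD.nv {p : ℕ} {S : Type*} [Group S] (h : DD p S) : NV p S := by
  obtain ⟨Q, hQ, hne⟩ := h
  refine ⟨Q, hQ, ?_⟩
  by_contra hcon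
  push Not at hcon
  apply hne
  rw [commutator_eq_bot_iff_le_centralizer, commutator_le]
  intro x hx y hy
  rw [mem_centralizer_iff]
  intro g hg
  have hle : ⁅Q, Q⁆ ≤ centralizer {⁅x, y⁆} := by
    rw [commutator_le]
    intro z hz w hw
    rw [mem_centralizer_singleton_iff]
    exact (commutatorElement_eq_one_iff_mul_comm.1 (hcon x hx y hy z hz w hw)).symm
  have := hle hg
  rw [mem_centralizer_singleton_iff] at this
  exact this

theorem NV.dd {p : ℕ} {S : Type*} [Group S] (h : NV p S) : DD p S := by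
  obtain ⟨Q, hQ, x, hx, y, hy, z, hz, w, hw, hne⟩ := h
  exact DD.of_mem Q hQ hx hy hz hw hne

theorem nv_perm {n : ℕ} (hn : 8 ≤ n) : NV 2 (Equiv.Perm (Fin n)) := (dd_perm hn).nv

theorem nv_alt {n : ℕ} (hn : 10 ≤ n) : NV 2 (alternatingGroup (Fin n)) := (dd_alt hn).nv

/-- **vacuous rows**: a `p`-subgroup of `S` that is not metabelian -/
theorem row_of_nv {p : ℕ} (hp : p.Prime) {S : Type v} [Group S] (h : NV p S) : Row p S := by
  have : Fact p.Prime := ⟨hp⟩
  intro A _ _ N _ ⟨e⟩ _ M _ P a ha hcd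
  have hA : NV p A := (h.congr e.symm).of_subgroup
  exact (hA.vacuous' P ha hcd.1 hcd.2).elim

theorem row_of_dd {p : ℕ} (hp : p.Prime) {S : Type v} [Group S] (h : DD p S) : Row p S := row_of_nv hp h.nv

theorem row2_of_nv {S : Type v} [Group S] (h : NV 2 S) : Row 2 S := row_of_nv Nat.prime_two h

theorem row2_of_dd {S : Type v} [Group S] (h : DD 2 S) : Row 2 S := row_of_nv Nat.prime_two h.nv

end Cfsg.Agent.H720.HT
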