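import Mathlib

/-!
# S4933: subgroups of prime power order of derived length at least 3

`DD p S`: some `p`-subgroup `Q` of `S` has `Q'' ≠ 1`. The property passes to overgroups and to groups having `S` as
a section, and it makes the second derived subgroup of every Sylow `p`-subgroup nontrivial.
-/

set_option autoImplicit false

namespace Cfsg.Agent.H720.HT

open Subgroup
open scoped commutatorElement

/-- some `p`-subgroup of `S` has nontrivial second derived subgroup -/
def DD (p : ℕ) (S : Type*) [Group S] : Prop :=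
  ∃ Q : Subgroup S, IsPGroup p Q ∧ ⁅⁅Q, Q⁆, ⁅Q, Q⁆⁆ ≠ ⊥

theorem DD.of_mem {p : ℕ} {S : Type*} [Group S] (Q : Subgroup S) (hQ : IsPGroup p Q) {a b c d : S} (ha : a ∈ Q)
    (hb : b ∈ Q) (hc : c ∈ Q) (hd : d ∈ Q) (h : ⁅⁅a, b⁆, ⁅c, d⁆⁆ ≠ 1) : DD p S := by
  refine ⟨Q, hQ, fun h0 => h ?_⟩
  have : ⁅⁅a, b⁆, ⁅c, d⁆⁆ ∈ ⁅⁅Q, Q⁆, ⁅Q, Q⁆⁆ :=
    commutator_mem_commutator (commutator_mem_commutator ha hb) (commutator_mem_commutator hc hd)
  rw [h0] at this
  exact mem_bot.1 this

theorem DD.exists_mem {p : ℕ} {S : Type*} [Group S] (h : DD p S) : ∃ Q : Subgroup S, IsPGroup p Q ∧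
    ¬ ∀ x ∈ ⁅Q, Q⁆, ∀ y ∈ ⁅Q, Q⁆, x * y = y * x := by
  obtain ⟨Q, hQ, hQ2⟩ := h
  refine ⟨Q, hQ, fun hc => hQ2 ?_⟩
  rw [eq_bot_iff, commutator_le]
  intro x hx y hy
  rw [mem_bot, commutatorElement_eq_one_iff_mul_comm]
  exact hc x hx y hy

theorem DD.of_injective {p : ℕ} {T S : Type*} [Group T] [Group S] (h : DD p T) (f : T →* S)
    (hf : Function.Injective f) : DD p S := by
  obtain ⟨Q, hQ, hQ2⟩ := h
  refine ⟨Q.map f, hQ.map f, fun h0 => hQ2 ?_⟩
  rw [← map_commutator, ← map_commutator] at h0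
  exact (map_eq_bot_iff_of_injective _ hf).1 h0

theorem DD.of_subgroup {p : ℕ} {S : Type*} [Group S] {H : Subgroup S} (h : DD p H) : DD p S :=
  h.of_injective H.subtype H.subtype_injective

theorem DD.of_equiv {p : ℕ} {T S : Type*} [Group T] [Group S] (h : DD p T) (e : T ≃* S) : DD p S :=
  h.of_injective e.toMonoidHom e.injective

/-- the property passes from a quotient of a finite group to the group -/
theorem DD.of_surjective {p : ℕ} [Fact p.Prime] {T S : Type*} [Group T] [Group S] [Finite S] (h : DD p T)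
    (f : S →* T) (hf : Function.Surjective f) : DD p S := by
  obtain ⟨Q, hQ, hQ2⟩ := h
  -- a Sylow subgroup of the preimage of `Q` maps onto `Q`
  let R : Subgroup S := Q.comap f
  obtain ⟨P⟩ : Nonempty (Sylow p R) := inferInstance
  let g : R →* Q := (f.comp R.subtype).codRestrict Q (fun x => x.2)
  have hg : Function.Surjective g := by
    rintro ⟨y, hy⟩
    obtain ⟨x, hx⟩ := hf y
    exact ⟨⟨x, by simpa [R, mem_comap, hx] using hy⟩, Subtype.ext hx⟩
  have hmap : (P : Subgroup R).map g = ⊤ := by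
    have hT : Finite T := Finite.of_surjective f hf
    have hidx : ¬ p ∣ ((P : Subgroup R).map g).index := by
      intro hd
      exact P.not_dvd_index (hd.trans (index_map_dvd _ hg))
    have hp : IsPGroup p ((P : Subgroup R).map g) := P.2.map g
    obtain ⟨n, hn⟩ := hQ.exists_card_eq
    have hi : ((P : Subgroup R).map g).index ∣ p ^ n := hn ▸ index_dvd_card _
    obtain ⟨k, -, hk⟩ := (Nat.dvd_prime_pow Fact.out).1 hi
    rcases Nat.eq_zero_or_pos k with rfl | hk0
    · exact index_eq_one.1 (by simpa using hk)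
    · exact absurd (hk ▸ dvd_pow_self p hk0.ne') hidx
  let P' : Subgroup S := (P : Subgroup R).map R.subtype
  have hP' : P'.map f = Q := by
    ext y
    constructor
    · rintro ⟨x, ⟨z, hz, rfl⟩, rfl⟩
      exact z.2
    · intro hy
      obtain ⟨z, hz, hz2⟩ : (⟨y, hy⟩ : Q) ∈ (P : Subgroup R).map g := by rw [hmap]; trivial
      exact ⟨z, ⟨z, hz, rfl⟩, congrArg Subtype.val hz2⟩
  refine ⟨P', P.2.map _, fun h0 => hQ2 ?_⟩
  rw [← hP', ← map_commutator, ← map_commutator, h0, Subgroup.map_bot]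

/-- the property passes from a section of a finite group to the group -/
theorem DD.of_section {p : ℕ} [Fact p.Prime] {T S : Type*} [Group T] [Group S] [Finite S] (h : DD p T)
    (H : Subgroup S) (f : H →* T) (hf : Function.Surjective f) : DD p S :=
  (h.of_surjective f hf).of_subgroup

/-- `P'' ≠ 1` for every Sylow `p`-subgroup -/
theorem DD.sylow {p : ℕ} [Fact p.Prime] {S : Type*} [Group S] [Finite S] (h : DD p S) (P : Sylow p S) :
    ⁅⁅(P : Subgroup S), (P : Subgroup S)⁆, ⁅(P : Subgroup S), (P : Subgroup S)⁆⁆ ≠ ⊥ := by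
  obtain ⟨Q, hQ, hQ2⟩ := h
  obtain ⟨P₁, hP₁⟩ := hQ.exists_le_sylow
  obtain ⟨g, hg⟩ := MulAction.exists_smul_eq S P₁ P
  intro h0
  apply hQ2
  have h1 : ⁅⁅(P₁ : Subgroup S), (P₁ : Subgroup S)⁆, ⁅(P₁ : Subgroup S), (P₁ : Subgroup S)⁆⁆ = ⊥ := by
    have e : (P : Subgroup S) = (P₁ : Subgroup S).map (MulAut.conj g).toMonoidHom := by
      rw [← hg]; rfl
    rw [e, ← map_commutator, ← map_commutator] at h0
    exact (map_eq_bot_iff_of_injective _ (MulAut.conj g).injective).1 h0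
  rw [eq_bot_iff, ← h1]
  exact commutator_mono (commutator_mono hP₁ hP₁) (commutator_mono hP₁ hP₁)

/-- `P'' ≠ 1` for every Sylow `p`-subgroup, in the derived series form -/
theorem DD.derived {p : ℕ} [Fact p.Prime] {S : Type*} [Group S] [Finite S] (h : DD p S) (P : Sylow p S) :
    derivedSeries ↥(P : Subgroup S) 2 ≠ ⊥ := by
  intro h0
  apply h.sylow P
  have h1 := congrArg (Subgroup.map (P : Subgroup S).subtype) h0
  rw [Subgroup.map_bot] at h1
  have e1 : derivedSeries ↥(P : Subgroup S) 2 =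
      ⁅⁅(⊤ : Subgroup ↥(P : Subgroup S)), ⊤⁆, ⁅(⊤ : Subgroup ↥(P : Subgroup S)), ⊤⁆⁆ := rfl
  rw [e1, map_commutator, map_commutator, ← MonoidHom.range_eq_map, range_subtype] at h1
  exact h1

/-- permutations preserving a chain of partitions in which every class splits into at most two classes -/
theorem levels {n : ℕ} (m : ℕ) (c : ℕ → Fin n → ℕ) (h0 : ∀ x y, c 0 x = c 0 y) (hm : ∀ x y, c m x = c m y → x = y)
    (h2 : ∀ i < m, ∀ x y z, c i x = c i y → c i y = c i z →
      c (i + 1) x = c (i + 1) y ∨ c (i + 1) y = c (i + 1) z ∨ c (i + 1) x = c (i + 1) z)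
    (s : Equiv.Perm (Fin n)) (hs : ∀ i ≤ m, ∀ x y, c i x = c i y ↔ c i (s x) = c i (s y)) : s ^ 2 ^ m = 1 := by
  have key : ∀ k ≤ m, ∀ x, c k ((s ^ 2 ^ k) x) = c k x := by
    intro k
    induction k with
    | zero => intro _ x; exact h0 _ _
    | succ k ih =>
      intro hk x
      have hpow : ∀ j : ℕ, ∀ x y, c (k + 1) x = c (k + 1) y ↔ c (k + 1) ((s ^ j) x) = c (k + 1) ((s ^ j) y) := by
        intro j
        induction j with
        | zero => intro x y; simp
        | succ j ihj =>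
          intro x y
          rw [pow_succ, Equiv.Perm.mul_apply, Equiv.Perm.mul_apply, ← ihj, ← hs (k + 1) hk]
      set t := s ^ 2 ^ k with ht
      have e : s ^ 2 ^ (k + 1) = t * t := by rw [ht, ← pow_add, pow_succ, mul_two]
      rw [e, Equiv.Perm.mul_apply]
      have a1 := ih (by omega) x
      have a2 := ih (by omega) (t x)
      rcases h2 k (by omega) x (t x) (t (t x)) a1.symm a2.symm with h | h | h
      · have := (hpow (2 ^ k) _ _).1 h
        rw [← ht] at this
        exact (h.trans this).symm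
      · have := (hpow (2 ^ k) _ _).2 h
        exact (this.trans h).symm
      · exact h.symm
  ext x
  have := hm _ _ (key m le_rfl x)
  simp [this]

/-- the group of all permutations preserving the levels is a `2`-group -/
def levelGroup {n : ℕ} (m : ℕ) (c : ℕ → Fin n → ℕ) : Subgroup (Equiv.Perm (Fin n)) where
  carrier := {s | ∀ i ≤ m, ∀ x y, c i x = c i y ↔ c i (s x) = c i (s y)}
  one_mem' := by intro i _ x y; simp
  mul_mem' := by
    intro s t hs ht i hi x y
    rw [Equiv.Perm.mul_apply, Equiv.Perm.mul_apply, ht i hi, hs i hi]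
  inv_mem' := by
    intro s hs i hi x y
    rw [hs i hi (s⁻¹ x) (s⁻¹ y)]
    simp

theorem isPGroup_levelGroup {n : ℕ} (m : ℕ) (c : ℕ → Fin n → ℕ) (h0 : ∀ x y, c 0 x = c 0 y)
    (hm : ∀ x y, c m x = c m y → x = y)
    (h2 : ∀ i < m, ∀ x y z, c i x = c i y → c i y = c i z →
      c (i + 1) x = c (i + 1) y ∨ c (i + 1) y = c (i + 1) z ∨ c (i + 1) x = c (i + 1) z) :
    IsPGroup 2 (levelGroup m c) := by
  intro s
  exact ⟨m, Subtype.ext (levels m c h0 hm h2 s.1 s.2)⟩

/-! ## Alternating and symmetric groups -/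

/-- levels on `8` points -/
def c8 (i : ℕ) (x : Fin 8) : ℕ := x.1 / 2 ^ (3 - i)

theorem dd_perm8 : DD 2 (Equiv.Perm (Fin 8)) := by
  refine DD.of_mem (levelGroup 3 c8) (isPGroup_levelGroup 3 c8 (by decide +kernel) (by decide +kernel)
    (by decide +kernel))
    (a := Equiv.swap 0 4 * Equiv.swap 1 5 * Equiv.swap 2 6 * Equiv.swap 3 7) (b := Equiv.swap 0 1)
    (c := Equiv.swap 0 4 * Equiv.swap 1 5 * Equiv.swap 2 6 * Equiv.swap 3 7)
    (d := Equiv.swap 0 2 * Equiv.swap 1 3) ?_ ?_ ?_ ?_ (by decide +kernel)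
  · show ∀ i ≤ 3, ∀ x y, c8 i x = c8 i y ↔ _
    decide +kernel
  · show ∀ i ≤ 3, ∀ x y, c8 i x = c8 i y ↔ _
    decide +kernel
  · show ∀ i ≤ 3, ∀ x y, c8 i x = c8 i y ↔ _
    decide +kernel
  · show ∀ i ≤ 3, ∀ x y, c8 i x = c8 i y ↔ _
    decide +kernel

/-- levels on `10` points -/
def c10 (i : ℕ) (x : Fin 10) : ℕ :=
  (((![![0, 0, 0, 0, 0, 0, 0, 0, 0, 0], ![0, 0, 0, 0, 0, 0, 0, 0, 1, 1], ![0, 0, 0, 0, 1, 1, 1, 1, 2, 3],
    ![0, 0, 1, 1, 2, 2, 3, 3, 4, 5], ![0, 1, 2, 3, 4, 5, 6, 7, 8, 9]] : Fin 5 → Fin 10 → ℕ)) (Fin.ofNat 5 i)) x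

theorem dd_alt10 : DD 2 (alternatingGroup (Fin 10)) := by
  have hp : IsPGroup 2 (levelGroup 4 c10) := isPGroup_levelGroup 4 c10 (by decide +kernel) (by decide +kernel)
    (by decide +kernel)
  refine DD.of_mem ((levelGroup 4 c10).comap (alternatingGroup (Fin 10)).subtype)
    (hp.comap_of_injective _ (alternatingGroup (Fin 10)).subtype_injective)
    (a := ⟨Equiv.swap 0 4 * Equiv.swap 1 5 * Equiv.swap 2 6 * Equiv.swap 3 7, by
      rw [Equiv.Perm.mem_alternatingGroup]; decide +kernel⟩)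
    (b := ⟨Equiv.swap 0 1 * Equiv.swap 8 9, by rw [Equiv.Perm.mem_alternatingGroup]; decide +kernel⟩)
    (c := ⟨Equiv.swap 0 4 * Equiv.swap 1 5 * Equiv.swap 2 6 * Equiv.swap 3 7, by
      rw [Equiv.Perm.mem_alternatingGroup]; decide +kernel⟩)
    (d := ⟨Equiv.swap 0 2 * Equiv.swap 1 3, by rw [Equiv.Perm.mem_alternatingGroup]; decide +kernel⟩)
    ?_ ?_ ?_ ?_ ?_
  · show ∀ i ≤ 4, ∀ x y, c10 i x = c10 i y ↔ _
    decide +kernel
  · show ∀ i ≤ 4, ∀ x y, c10 i x = c10 i y ↔ _
    decide +kernel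
  · show ∀ i ≤ 4, ∀ x y, c10 i x = c10 i y ↔ _
    decide +kernel
  · show ∀ i ≤ 4, ∀ x y, c10 i x = c10 i y ↔ _
    decide +kernel
  · intro h
    have := congrArg Subtype.val h
    revert this
    decide +kernel

theorem dd_perm {n : ℕ} (hn : 8 ≤ n) : DD 2 (Equiv.Perm (Fin n)) :=
  dd_perm8.of_injective (Equiv.Perm.viaEmbeddingHom (Fin.castLEEmb hn)) (Equiv.Perm.viaEmbeddingHom_injective _)

theorem dd_alt {n : ℕ} (hn : 10 ≤ n) : DD 2 (alternatingGroup (Fin n)) := by
  classical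
  let f : alternatingGroup (Fin 10) →* Equiv.Perm (Fin n) :=
    (Equiv.Perm.viaEmbeddingHom (Fin.castLEEmb hn)).comp (alternatingGroup (Fin 10)).subtype
  have hf : Function.Injective f :=
    (Equiv.Perm.viaEmbeddingHom_injective _).comp (alternatingGroup (Fin 10)).subtype_injective
  have hr : ∀ x, f x ∈ alternatingGroup (Fin n) := by
    have h1 : (commutator (Equiv.Perm (Fin 10))) = alternatingGroup (Fin 10) :=
      alternatingGroup.commutator_perm_eq (by simp)
    intro x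
    have hx : (x : Equiv.Perm (Fin 10)) ∈ commutator (Equiv.Perm (Fin 10)) := by rw [h1]; exact x.2
    have h2 : (commutator (Equiv.Perm (Fin 10))).map (Equiv.Perm.viaEmbeddingHom (Fin.castLEEmb hn)) ≤
        commutator (Equiv.Perm (Fin n)) := by
      rw [commutator_def, commutator_def, map_commutator]
      exact commutator_mono le_top le_top
    exact alternatingGroup.commutator_perm_le (h2 (mem_map_of_mem _ hx))
  exact dd_alt10.of_injective (f.codRestrict _ hr) (fun x y h => hf (congrArg Subtype.val h))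

end Cfsg.Agent.H720.HT
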