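import Cfsg.Agent.H720.HT.Bridge
import Cfsg.Agent.SuzThree.QZero

/-!
# S4933, the row `(Suz, 2)`: an element of order four on the extraspecial group of an involution centralizer
-/

set_option autoImplicit false
set_option maxRecDepth 100000
set_option exponentiation.threshold 4000

namespace Cfsg.Agent.H720.HT

open Subgroup Cfsg Cfsg.Spor
open scoped commutatorElement
open Cfsg.Agent.H483.HT (NV)
open Cfsg.Agent.H316.HT (Row)
open Cfsg.Agent.Lib.PermNet Cfsg.Agent.Lib.PermNetOrbit Cfsg.Agent.SporadicRecognition.SuzPhi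
  Cfsg.Agent.SporadicRecognition.SuzBound Cfsg.Agent.SporadicRecognition.SuzOrder
  Cfsg.Agent.SuzThree.Nets Cfsg.Agent.SuzThree.Basic Cfsg.Agent.SuzThree.Elts
  Cfsg.Agent.SuzThree.Elementary Cfsg.Agent.SuzThree.CentA Cfsg.Agent.SuzThree.CentB Cfsg.Agent.SuzThree.QZero

universe u

/-- the word of an element of order four modulo the extraspecial group -/
def wg : List Suz.Gen := [.d] ++ Cfsg.Agent.SuzThree.CentA.h1

theorem wg_mem : el wg ∈ cl ga := by
  rw [wg, el_append]
  exact mul_mem (el_mem_cl (by simp [ga])) (el_mem_cl (by simp [ga]))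

theorem wg_pow : el wg ^ 2 ^ 3 = 1 := by
  have h : el (wg ++ (wg ++ (wg ++ (wg ++ (wg ++ (wg ++ (wg ++ wg))))))) = el [] :=
    eq_of_reps (Rep.el _) (Rep.el _) (by decide +kernel)
  simp only [el_append] at h
  rw [el_nil] at h
  rw [show 2 ^ 3 = 7 + 1 from rfl]
  simp only [pow_succ, pow_zero, one_mul]
  rw [← h]
  simp only [mul_assoc]

theorem z0_ne' : z0 ≠ 1 := by
  intro h
  have h1 : φ z0 2 = 2 := by rw [h, map_one]; rfl
  have h2 : φ z0 2 = 3 := (Rep.el [.a]).pt (by decide +kernel)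
  rw [h1] at h2
  exact absurd h2 (by decide)

/-- the two commutators -/
def wA : List Suz.Gen := [.c] ++ (wg ++ ([.c] ++ wg.reverse))
def wB : List Suz.Gen := [.g] ++ (wg ++ ([.g] ++ wg.reverse))

theorem el_wA : el wA = ⁅el [.c], el wg⁆ := by
  have h : (el [.c])⁻¹ = el [.c] := inv_eq_of_mul_eq_one_right (gen_sq .c)
  rw [wA, el_append, el_append, el_append, el_reverse, commutatorElement_def, h]
  simp only [mul_assoc]

theorem el_wB : el wB = ⁅el [.g], el wg⁆ := by
  have h : (el [.g])⁻¹ = el [.g] := inv_eq_of_mul_eq_one_right (gen_sq .g)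
  rw [wB, el_append, el_append, el_append, el_reverse, commutatorElement_def, h]
  simp only [mul_assoc]

theorem comm_eq : ⁅⁅el [.c], el wg⁆, ⁅el [.g], el wg⁆⁆ = z0 := by
  have h : el (wA ++ (wB ++ (wA.reverse ++ wB.reverse))) = el [.a] :=
    eq_of_reps (Rep.el _) (Rep.el _) (by decide +kernel)
  rw [el_append, el_append, el_append, el_reverse, el_reverse, el_wA, el_wB] at h
  have key : ∀ A B : Suz, ⁅A, B⁆ = A * (B * (A⁻¹ * B⁻¹)) := fun A B => by
    rw [commutatorElement_def]; simp only [mul_assoc]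
  rw [key ⁅el [.c], el wg⁆ ⁅el [.g], el wg⁆, h]

theorem isPGroup_wg : IsPGroup 2 (Subgroup.zpowers (el wg)) := by
  intro ⟨g, hg⟩
  refine ⟨3, ?_⟩
  obtain ⟨k, rfl⟩ := Subgroup.mem_zpowers_iff.1 hg
  apply Subtype.ext
  show (el wg ^ k) ^ (2 ^ 3) = 1
  rw [← zpow_natCast, ← zpow_mul, mul_comm, zpow_mul, zpow_natCast, wg_pow, one_zpow]

theorem nv_suz_model : NV 2 Suz := by
  have hn : Subgroup.zpowers (el wg) ≤ Subgroup.normalizer (Q0 : Set Suz) := by
    rw [Subgroup.zpowers_le]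
    exact cl_le_normalizer wg_mem
  refine ⟨Subgroup.zpowers (el wg) ⊔ Q0, isPGroup_wg.to_sup_of_normal_right' isPGroup_Q0 hn,
    el [.c], (le_sup_right : Q0 ≤ _) (q_mem .k1), el wg,
    (le_sup_left : Subgroup.zpowers (el wg) ≤ _) (Subgroup.mem_zpowers _),
    el [.g], (le_sup_right : Q0 ≤ _) (q_mem .k5), el wg,
    (le_sup_left : Subgroup.zpowers (el wg) ≤ _) (Subgroup.mem_zpowers _), ?_⟩
  rw [comm_eq]
  exact z0_ne'

theorem nv_suz {S : Type u} [Group S] (h : Spor.IsoSuz S) : NV 2 S := by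
  obtain ⟨e⟩ := h
  exact nv_suz_model.congr e.symm

theorem row2_suz {S : Type u} [Group S] (h : Spor.IsoSuz S) : Row 2 S := row2_of_nv (nv_suz h)

end Cfsg.Agent.H720.HT
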