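import Cfsg.Agent.H720.HT.Bridge
import Cfsg.Agent.Sigma.ThRow

/-!
# S4933, the row `(Th, 2)`: an element of order four on the extraspecial group of order `2 ^ 9`
-/

set_option autoImplicit false

namespace Cfsg.Agent.H720.HT

open Subgroup Cfsg
open scoped commutatorElement
open Cfsg.Agent.H483.HT (NV)
open Cfsg.Agent.H316.HT (Row)
open Cfsg.Agent.ThType.SpinData Cfsg.Agent.ThType.ElemE

universe u

/-- an element of order four -/
def tau : alternatingGroup (Fin 9) := cyc 0 * cyc 0 * cyc 1 * cyc 2 * cyc 3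

/-- its matrix -/
def mtau : Matrix (Fin 8) (Fin 8) (ZMod 2) := X 0 * X 0 * X 1 * X 2 * X 3

theorem tau_pow : tau ^ 4 = 1 := by decide +kernel

theorem b0_tau : b0 (Pi.single 0 1 + mtau.mulVec (Pi.single 0 1)) (Pi.single 4 1 + mtau.mulVec (Pi.single 4 1)) = 1 := by
  decide +kernel

theorem rho_tau {G : Type*} [Group G] {z : G} (S : SpinAt G z) : S.ρ tau = mtau := by
  simp only [tau, mtau, map_mul, S.ρ_cyc]

theorem nv_of_spin {G : Type*} [Group G] [Finite G] {z : G} (S : SpinAt G z) : NV 2 G := by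
  obtain ⟨g0, hg0, hφ⟩ := S.φ_surj tau
  obtain ⟨a, m, hm, hord⟩ := Nat.exists_eq_two_pow_mul_odd (orderOf_pos g0).ne'
  have hC : ∀ n : ℕ, g0 ^ n * z = z * g0 ^ n := fun n => (Commute.pow_left (show Commute g0 z from hg0) n).eq
  set g := g0 ^ (m * m) with hgdef
  have hgz : g * z = z * g := hC _
  have hg2 : g ^ 2 ^ a = 1 := by
    rw [hgdef, ← pow_mul, show m * m * 2 ^ a = (2 ^ a * m) * m by ring, ← hord, pow_mul, pow_orderOf_eq_one, one_pow]
  have hφg : S.φ g = tau := by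
    rw [hgdef, phi_pow S g0 hg0, hφ]
    obtain ⟨k, rfl⟩ := hm
    rw [show (2 * k + 1) * (2 * k + 1) = 4 * (k * k + k) + 1 by ring, pow_succ, pow_mul, tau_pow, one_pow, one_mul]
  have hpg : IsPGroup 2 (zpowers g) := by
    intro ⟨h, hh⟩
    refine ⟨a, ?_⟩
    obtain ⟨k, rfl⟩ := mem_zpowers_iff.1 hh
    apply Subtype.ext
    show (g ^ k) ^ (2 ^ a) = 1
    rw [← zpow_natCast, ← zpow_mul, mul_comm, zpow_mul, zpow_natCast, hg2, one_zpow]
  have hpQ : IsPGroup 2 S.Q := by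
    intro ⟨h, hh⟩
    exact ⟨2, Subtype.ext (pow_four S hh)⟩
  have hn : zpowers g ≤ normalizer (S.Q : Set G) := by
    rw [zpowers_le]
    intro x
    exact (conj_mem_Q_iff S hgz).symm
  have hpi : ∀ x ∈ S.Q, S.π x⁻¹ = S.π x := by
    intro x hx
    have h1 := S.π_mul x hx x⁻¹ (inv_mem hx)
    rw [mul_inv_cancel, pi_one S] at h1
    have h2 := vadd_self (S.π x)
    exact add_left_cancel (h1.symm.trans h2.symm)
  have key : ∀ x ∈ S.Q, ⁅x, g⁆ ∈ S.Q ∧ S.π ⁅x, g⁆ = S.π x + mtau.mulVec (S.π x) := by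
    intro x hx
    have h1 : ⁅x, g⁆ = x * (g * x⁻¹ * g⁻¹) := by rw [commutatorElement_def]; simp only [mul_assoc]
    have h2 : g * x⁻¹ * g⁻¹ ∈ S.Q := conj_mem_Q S hgz (inv_mem hx)
    rw [h1]
    refine ⟨mul_mem hx h2, ?_⟩
    rw [S.π_mul x hx _ h2, S.act g hgz _ (inv_mem hx), hpi x hx, hφg, rho_tau]
  obtain ⟨x, hx, hxv⟩ := S.π_surj (Pi.single 0 1)
  obtain ⟨y, hy, hyv⟩ := S.π_surj (Pi.single 4 1)
  have hQ : S.Q ≤ zpowers g ⊔ S.Q := le_sup_right
  have hgm : g ∈ zpowers g ⊔ S.Q := (le_sup_left : zpowers g ≤ _) (mem_zpowers g)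
  refine ⟨zpowers g ⊔ S.Q, hpg.to_sup_of_normal_right' hpQ hn, x, hQ hx, g, hgm, y, hQ hy, g, hgm, ?_⟩
  intro h
  rw [commutatorElement_eq_one_iff_mul_comm, comm_iff S (key x hx).1 (key y hy).1, (key x hx).2, (key y hy).2,
    hxv, hyv, b0_tau] at h
  exact one_ne_zero h

theorem nv_th {S : Type u} [Group S] (h : Spor.IsoTh S) : NV 2 S := by
  obtain ⟨e⟩ := h
  have hf : Finite Cfsg.Spor.Th := Cfsg.Agent.Th.Main1700.final.1
  obtain ⟨D⟩ := Cfsg.Agent.Sigma.ThRow.exists_spin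
  exact (nv_of_spin D).congr e.symm

theorem row2_th {S : Type u} [Group S] (h : Spor.IsoTh S) : Row 2 S := row2_of_nv (nv_th h)

end Cfsg.Agent.H720.HT
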